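import Cfsg.Agent.Lib.InvBound.Neumann

/-!
# An inverted element of odd order has few commutators on an abelian normal subgroup
-/

namespace Cfsg.Agent.Lib.InvBound

open Subgroup
open scoped Pointwise

universe u

variable {G : Type u} [Group G] [Finite G]

theorem exists_sqrt {α : MulAut G} {x : G} (hx : x ∈ OI α) : ∃ y, y * y = x ∧ α y = y⁻¹ := by
  obtain ⟨e, he⟩ := hx.1
  refine ⟨x ^ (e + 1), ?_, ?_⟩
  · rw [← pow_add]
    have : e + 1 + (e + 1) = orderOf x + 1 := by omega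
    rw [this, pow_succ, pow_orderOf_eq_one, one_mul]
  · rw [map_pow, hx.2, inv_pow]

/-- `|A : C_A(x)| ≤ c²` for `A` abelian normal `α`-invariant, `x` inverted of odd order. -/
theorem relIndex_cz_le {α : MulAut G} (hα : α * α = 1) {A : Subgroup G} (hAn : A.Normal)
    (hAb : ∀ a ∈ A, ∀ b ∈ A, a * b = b * a) (hAα : ∀ a ∈ A, α a ∈ A) {x : G} (hx : x ∈ OI α)
    {c : ℕ} (hc : Nat.card (Fx α) ≤ c) : (A ⊓ cz x).relIndex A ≤ c ^ 2 := by
  classical
  have hinvA : ∀ a b : A, (⟨α a.1, hAα _ a.2⟩ : A) * b = b * ⟨α a.1, hAα _ a.2⟩ := fun a b =>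
    Subtype.ext (hAb _ (hAα _ a.2) _ b.2)
  let φ : ↥A →* ↥A :=
    { toFun := fun a => ⟨a.1 * (α a.1)⁻¹, mul_mem a.2 (inv_mem (hAα _ a.2))⟩
      map_one' := by ext; simp
      map_mul' := fun a b => by
        apply Subtype.ext
        change (a.1 * b.1) * (α (a.1 * b.1))⁻¹ = (a.1 * (α a.1)⁻¹) * (b.1 * (α b.1)⁻¹)
        rw [map_mul, mul_inv_rev]
        have h1 : (α b.1)⁻¹ * (α a.1)⁻¹ = (α a.1)⁻¹ * (α b.1)⁻¹ :=
          hAb _ (inv_mem (hAα _ b.2)) _ (inv_mem (hAα _ a.2))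
        have h2 : b.1 * (α a.1)⁻¹ = (α a.1)⁻¹ * b.1 := hAb _ b.2 _ (inv_mem (hAα _ a.2))
        rw [h1, mul_assoc, mul_assoc, ← mul_assoc b.1, h2, mul_assoc] }
  obtain ⟨y, hy1, hy2⟩ := exists_sqrt hx
  let σ : ↥A →* ↥A :=
    { toFun := fun a => ⟨y⁻¹ * a.1 * y⁻¹⁻¹, hAn.conj_mem _ a.2 _⟩
      map_one' := by ext; simp
      map_mul' := fun a b => by
        apply Subtype.ext
        change y⁻¹ * (a.1 * b.1) * y⁻¹⁻¹ = (y⁻¹ * a.1 * y⁻¹⁻¹) * (y⁻¹ * b.1 * y⁻¹⁻¹)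
        group }
  have hσ : Function.Surjective σ := by
    intro a
    refine ⟨⟨y * a.1 * y⁻¹, hAn.conj_mem _ a.2 _⟩, Subtype.ext ?_⟩
    change y⁻¹ * (y * a.1 * y⁻¹) * y⁻¹⁻¹ = a.1
    group
  set B := φ.range with hB
  set B' := B.comap σ with hB'
  have hker : Nat.card φ.ker ≤ c := by
    refine le_trans ?_ hc
    have hfix : ∀ a : φ.ker, a.1.1 ∈ Fx α := by
      intro a
      have h1 : φ a.1 = 1 := a.2
      have h2 : a.1.1 * (α a.1.1)⁻¹ = 1 := congrArg Subtype.val h1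
      have h3 : a.1.1 = α a.1.1 := mul_inv_eq_one.1 h2
      exact h3.symm
    refine Nat.card_le_card_of_injective (fun a : φ.ker => (⟨a.1.1, hfix a⟩ : Fx α)) ?_
    intro a b hab
    exact Subtype.ext (Subtype.ext (congrArg (fun w : Fx α => w.1) hab))
  have hidx : B.index = Nat.card φ.ker := by
    have h1 := Subgroup.index_mul_card B
    have h2 := Subgroup.index_mul_card φ.ker
    rw [Subgroup.index_ker] at h2
    have hpos : 0 < Nat.card B := Nat.card_pos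
    have h3 : B.index * Nat.card B = Nat.card φ.ker * Nat.card B := by
      rw [h1, ← h2, mul_comm]
    exact Nat.eq_of_mul_eq_mul_right hpos h3
  have hB'idx : B'.index = B.index := Subgroup.index_comap_of_surjective _ hσ
  have hinf : (B ⊓ B').index ≤ c ^ 2 := by
    refine Subgroup.index_inf_le.trans ?_
    rw [hB'idx, hidx, pow_two]
    exact Nat.mul_le_mul hker hker
  have hBinv : ∀ z ∈ B, α z.1 = z.1⁻¹ := by
    rintro z ⟨a, rfl⟩
    change α (a.1 * (α a.1)⁻¹) = (a.1 * (α a.1)⁻¹)⁻¹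
    rw [map_mul, map_inv, invol hα]
    group
  have hle : B ⊓ B' ≤ (A ⊓ cz x).subgroupOf A := by
    rintro z ⟨hz1, hz2⟩
    have h1 : α z.1 = z.1⁻¹ := hBinv z hz1
    have h2 : α (σ z).1 = (σ z).1⁻¹ := hBinv (σ z) hz2
    change α (y⁻¹ * z.1 * y⁻¹⁻¹) = (y⁻¹ * z.1 * y⁻¹⁻¹)⁻¹ at h2
    simp only [inv_inv, map_mul, map_inv, hy2, h1] at h2
    have h3 : y * z.1⁻¹ * y⁻¹ = y⁻¹ * z.1⁻¹ * y := by
      rw [h2]
      group
    have h4 : x * z.1⁻¹ = z.1⁻¹ * x := by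
      rw [← hy1]
      calc y * y * z.1⁻¹ = y * (y * z.1⁻¹ * y⁻¹) * y := by group
        _ = y * (y⁻¹ * z.1⁻¹ * y) * y := by rw [h3]
        _ = _ := by group
    have h5 : z.1 ∈ cz x := by
      rw [mem_cz]
      calc z.1 * x = z.1 * (x * z.1⁻¹) * z.1 := by group
        _ = z.1 * (z.1⁻¹ * x) * z.1 := by rw [h4]
        _ = x * z.1 := by group
    exact ⟨z.2, h5⟩
  unfold Subgroup.relIndex
  refine le_trans ?_ hinf
  exact Nat.le_of_dvd (Nat.pos_of_ne_zero FiniteIndex.index_ne_zero) (Subgroup.index_dvd_of_le hle)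

end Cfsg.Agent.Lib.InvBound
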