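import Mathlib

/-!
# Involutory automorphisms: inverted elements, lifting

`OI α` : elements of odd order inverted by `α`. `Fx α` : fixed points of `α`.
-/

namespace Cfsg.Agent.Lib.InvBound

open Subgroup
open scoped Pointwise

universe u v

variable {G : Type u} [Group G]

/-- Centralizer of an element. -/
abbrev cz (x : G) : Subgroup G := centralizer ({x} : Set G)

theorem mem_cz {g x : G} : g ∈ cz x ↔ g * x = x * g := by
  rw [Subgroup.mem_centralizer_singleton_iff]

/-- The fixed points of an automorphism. -/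
def Fx (α : MulAut G) : Subgroup G where
  carrier := {g | α g = g}
  mul_mem' := fun {a b} ha hb => by
    change α (a * b) = a * b
    rw [map_mul, show α a = a from ha, show α b = b from hb]
  one_mem' := map_one α
  inv_mem' := fun {a} ha => by
    change α a⁻¹ = a⁻¹
    rw [map_inv, show α a = a from ha]

theorem mem_Fx {α : MulAut G} {g : G} : g ∈ Fx α ↔ α g = g := Iff.rfl

/-- The elements of odd order inverted by `α`. -/
def OI (α : MulAut G) : Set G := {g | Odd (orderOf g) ∧ α g = g⁻¹}

theorem mem_OI {α : MulAut G} {g : G} : g ∈ OI α ↔ Odd (orderOf g) ∧ α g = g⁻¹ := Iff.rfl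

theorem invol {α : MulAut G} (hα : α * α = 1) (x : G) : α (α x) = x := by
  have := congrArg (fun β : MulAut G => β x) hα
  simpa using this

theorem one_mem_OI (α : MulAut G) : (1 : G) ∈ OI α := by
  refine ⟨?_, by simp⟩
  simp

theorem OI_pow {α : MulAut G} {u : G} (hu : u ∈ OI α) (m : ℕ) [Finite G] : u ^ m ∈ OI α := by
  refine ⟨?_, by rw [map_pow, hu.2, inv_pow]⟩
  have : orderOf (u ^ m) ∣ orderOf u := by
    apply orderOf_dvd_of_pow_eq_one
    rw [← pow_mul, mul_comm, pow_mul, pow_orderOf_eq_one, one_pow]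
  exact Odd.of_dvd_nat hu.1 this

theorem odd_order_two_pow [Finite G] (y : G) : Odd (orderOf (y ^ (2 ^ Nat.card G))) := by
  have hpos : orderOf y ≠ 0 := (orderOf_pos y).ne'
  obtain ⟨a, b, hb, hab⟩ := Nat.exists_eq_two_pow_mul_odd hpos
  have ha : a ≤ Nat.card G := by
    have h1 : a < 2 ^ a := Nat.lt_two_pow_self
    have h2 : 2 ^ a ≤ orderOf y := by
      rw [hab]
      exact Nat.le_mul_of_pos_right _ hb.pos
    have h3 : orderOf y ≤ Nat.card G := orderOf_le_card
    omega
  have h1 : orderOf (y ^ (2 ^ Nat.card G)) ∣ b := by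
    apply orderOf_dvd_of_pow_eq_one
    obtain ⟨d, hd⟩ := Nat.exists_eq_add_of_le ha
    rw [← pow_mul, hd, pow_add]
    have : 2 ^ a * 2 ^ d * b = (2 ^ a * b) * 2 ^ d := by ring
    rw [this, ← hab, pow_mul, pow_orderOf_eq_one, one_pow]
  exact Odd.of_dvd_nat hb h1

/-- An element inverted modulo the kernel of `h`, with image of odd order, lifts to `OI α`. -/
theorem exists_lift [Finite G] {Q : Type v} [Group Q] {α : MulAut G} (hα : α * α = 1) (h : G →* Q)
    (g : G) (hodd : Odd (orderOf (h g))) (hinv : h (α g) = (h g)⁻¹) : ∃ u ∈ OI α, h u = h g := by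
  set v := g * (α g)⁻¹ with hv
  have hαv : α v = v⁻¹ := by
    rw [hv, map_mul, map_inv, invol hα]
    group
  have hhv : h v = h g * h g := by
    rw [hv, map_mul, map_inv, hinv, inv_inv]
  set N := Nat.card G with hN
  set u₀ := v ^ (2 ^ N) with hu₀
  have hu₀OI : u₀ ∈ OI α := by
    refine ⟨odd_order_two_pow v, ?_⟩
    rw [hu₀, map_pow, hαv, inv_pow]
  have hhu₀ : h u₀ = h g ^ (2 ^ (N + 1)) := by
    rw [hu₀, map_pow, hhv, ← pow_two, ← pow_mul, ← pow_succ']
  have hcop : (2 ^ (N + 1)).Coprime (orderOf (h g)) :=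
    Nat.Coprime.pow_left _ (Nat.coprime_two_left.2 hodd)
  obtain ⟨m, hm⟩ := exists_pow_eq_self_of_coprime hcop
  refine ⟨u₀ ^ m, OI_pow hu₀OI m, ?_⟩
  rw [map_pow, hhu₀, hm]

/-- The index of a centralizer is invariant under automorphisms. -/
theorem index_cz_aut [Finite G] (β : MulAut G) (x : G) : (cz (β x)).index = (cz x).index := by
  have h : cz x = (cz (β x)).comap β.toMonoidHom := by
    ext g
    rw [Subgroup.mem_comap, mem_cz, mem_cz]
    constructor
    · intro h
      change β g * β x = β x * β g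
      rw [← map_mul, h, map_mul]
    · intro h
      have h2 : β g * β x = β x * β g := h
      rw [← map_mul, ← map_mul] at h2
      exact β.injective h2
  rw [h, Subgroup.index_comap_of_surjective _ β.surjective]

theorem index_cz_mul_le [Finite G] (a b : G) : (cz (a * b)).index ≤ (cz a).index * (cz b).index := by
  have h1 : cz a ⊓ cz b ≤ cz (a * b) := by
    rintro g ⟨h1, h2⟩
    have h1' : g * a = a * g := mem_cz.1 h1
    have h2' : g * b = b * g := mem_cz.1 h2
    rw [mem_cz, ← mul_assoc, h1', mul_assoc, h2', mul_assoc]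
  refine le_trans ?_ Subgroup.index_inf_le
  exact Nat.le_of_dvd (Nat.pos_of_ne_zero (FiniteIndex.index_ne_zero))
    (Subgroup.index_dvd_of_le h1)

end Cfsg.Agent.Lib.InvBound
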