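import Cfsg.Agent.Lib.InvBound.Abelian

/-!
# Bounding the index of the center

`G = ⟨OI α⟩`, `|OI α| ≤ m`, `|C(α)| ≤ c` imply `|G : Z(G)| ≤ BB m c`. Then `|G| ≤ m · S(|G : Z(G)|)`
by Schur's theorem.
-/

namespace Cfsg.Agent.Lib.InvBound

open Subgroup
open scoped Pointwise

universe u

variable {G : Type u} [Group G] [Finite G]

/-- The bound for `|G : Z(G)|`. -/
def BB (m c : ℕ) : ℕ :=
  (c ^ 2) ^ m * ((2 * c ^ 2) * ((2 * c ^ 2) ^ (3 * (2 * c ^ 2) + 2)) ^ ((2 * c ^ 2) * m))

omit [Finite G] in
theorem mem_center_of_closure {S : Set G} (hS : closure S = ⊤) {z : G}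
    (hz : ∀ s ∈ S, z * s = s * z) : z ∈ center G := by
  have h1 : closure S ≤ cz z := by
    rw [closure_le]
    intro s hs
    rw [SetLike.mem_coe, mem_cz]
    exact (hz s hs).symm
  rw [Subgroup.mem_center_iff]
  intro g
  have h2 : g ∈ cz z := h1 (hS ▸ mem_top g)
  exact mem_cz.1 h2

/-- A finite set of elements with bounded class sizes has a centralizer of bounded index. -/
theorem exists_centralizing (S : Finset G) {n : ℕ} (h : ∀ s ∈ S, (cz s).index ≤ n) :
    ∃ W : Subgroup G, W.index ≤ n ^ S.card ∧ ∀ w ∈ W, ∀ s ∈ S, w * s = s * w := by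
  classical
  induction S using Finset.induction_on with
  | empty => exact ⟨⊤, by simp, by simp⟩
  | @insert a S ha ih =>
    obtain ⟨W, hW1, hW2⟩ := ih fun s hs => h s (Finset.mem_insert_of_mem hs)
    refine ⟨W ⊓ cz a, ?_, ?_⟩
    · refine Subgroup.index_inf_le.trans ?_
      rw [Finset.card_insert_of_notMem ha, pow_succ]
      exact Nat.mul_le_mul hW1 (h a (Finset.mem_insert_self _ _))
    · rintro w ⟨hw1, hw2⟩ s hs
      rcases Finset.mem_insert.1 hs with rfl | hs
      · exact mem_cz.1 hw2
      · exact hW2 w hw1 s hs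

/-- Iterating `relIndex_cz_le`. -/
theorem exists_rel_centralizing {α : MulAut G} (hα : α * α = 1) {A : Subgroup G} (hAn : A.Normal)
    (hAb : ∀ a ∈ A, ∀ b ∈ A, a * b = b * a) (hAα : ∀ a ∈ A, α a ∈ A) {c : ℕ}
    (hc : Nat.card (Fx α) ≤ c) (F : Finset G) (hF : ∀ x ∈ F, x ∈ OI α) :
    ∃ W : Subgroup G, W ≤ A ∧ W.relIndex A ≤ (c ^ 2) ^ F.card ∧ ∀ w ∈ W, ∀ x ∈ F, w * x = x * w := by
  classical
  induction F using Finset.induction_on with
  | empty => exact ⟨A, le_rfl, by simp, by simp⟩
  | @insert a F ha ih =>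
    obtain ⟨W, hW0, hW1, hW2⟩ := ih fun s hs => hF s (Finset.mem_insert_of_mem hs)
    refine ⟨W ⊓ (A ⊓ cz a), inf_le_left.trans hW0, ?_, ?_⟩
    · refine Subgroup.relIndex_inf_le.trans ?_
      rw [Finset.card_insert_of_notMem ha, pow_succ]
      exact Nat.mul_le_mul hW1
        (relIndex_cz_le hα hAn hAb hAα (hF a (Finset.mem_insert_self _ _)) hc)
    · rintro w ⟨hw1, hw2⟩ s hs
      rcases Finset.mem_insert.1 hs with rfl | hs
      · exact mem_cz.1 hw2.2
      · exact hW2 w hw1 s hs

/-- **Theorem A**: the center has bounded index. -/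
theorem center_index_le {α : MulAut G} (hα : α * α = 1) (hgen : closure (OI α) = ⊤) {m c : ℕ}
    (hm : Nat.card (OI α) ≤ m) (hc : Nat.card (Fx α) ≤ c) : (center G).index ≤ BB m c := by
  classical
  haveI := Fintype.ofFinite G
  set r := 2 * c ^ 2 with hr
  set X := Finset.univ.filter (fun x : G => (cz x).index ≤ r) with hX
  have hXcard : Nat.card G ≤ r * X.card := by
    rw [Nat.card_eq_fintype_card]
    exact card_le_r_mul hα hc
  have hXmem : ∀ x, x ∈ X ↔ (cz x).index ≤ r := fun x => by simp [hX]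
  have hcpos : 0 < c := lt_of_lt_of_le Nat.card_pos hc
  have hrpos : 1 ≤ r := by
    rw [hr]
    have : 0 < c ^ 2 := by positivity
    omega
  have h1X : (1 : G) ∈ X := by
    rw [hXmem]
    have : cz (1 : G) = ⊤ := by
      ext y
      rw [mem_cz]
      simp
    rw [this, Subgroup.index_top]
    exact hrpos
  have hautX : ∀ (β : MulAut G) (x : G), x ∈ X → β x ∈ X := by
    intro β x hx
    rw [hXmem, index_cz_aut]
    exact (hXmem x).1 hx
  have hinvX : ∀ x ∈ X, x⁻¹ ∈ X := by
    intro x hx
    rw [hXmem] at hx ⊢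
    have : cz x⁻¹ = cz x := by
      ext g
      rw [mem_cz, mem_cz]
      constructor
      · intro h
        calc g * x = x * (x⁻¹ * g) * x := by group
          _ = x * (g * x⁻¹) * x := by rw [h]
          _ = x * g := by group
      · intro h
        calc g * x⁻¹ = x⁻¹ * (x * g) * x⁻¹ := by group
          _ = x⁻¹ * (g * x) * x⁻¹ := by rw [h]
          _ = x⁻¹ * g := by group
    rw [this]
    exact hx
  set K := closure (X : Set G) with hK
  -- `K` is invariant under automorphisms
  have hautK : ∀ (β : MulAut G), ∀ k ∈ K, β k ∈ K := by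
    intro β
    have : K ≤ K.comap β.toMonoidHom := by
      rw [hK, closure_le]
      intro x hx
      exact subset_closure (Finset.mem_coe.2 (hautX β x (Finset.mem_coe.1 hx)))
    exact fun k hk => this hk
  have hKn : K.Normal := ⟨fun k hk g => hautK (MulAut.conj g) k hk⟩
  have hKidx : K.index ≤ r := by
    have h1 := Subgroup.index_mul_card K
    have h2 : X.card ≤ Nat.card K := by
      have h3 : Fintype.card X ≤ Fintype.card (X : Set G) := le_rfl
      have hinj : Function.Injective (fun x : X => (⟨x.1, subset_closure (Finset.mem_coe.2 x.2)⟩ : K)) := by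
        intro a b hab
        exact Subtype.ext (congrArg (fun w : K => w.1) hab)
      have h4 := Nat.card_le_card_of_injective _ hinj
      rwa [Nat.card_eq_fintype_card, Fintype.card_coe] at h4
    have hcardK : 0 < Nat.card K := Nat.card_pos
    have h5 : K.index * Nat.card K ≤ r * Nat.card K := by
      rw [h1]
      exact hXcard.trans (Nat.mul_le_mul_left _ h2)
    exact Nat.le_of_mul_le_mul_right h5 hcardK
  -- class sizes in `K`
  have hclass : ∀ k ∈ K, (cz k).index ≤ r ^ (3 * r + 2) := by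
    intro k hk
    have h1 := mem_pow_of_mem_closure h1X hinvX hXcard k hk
    exact index_cz_of_mem_pow (fun x hx => (hXmem x).1 hx) _ k h1
  -- generators of `K`
  haveI hGfg : Group.FG G := inferInstance
  have hrankG : Group.rank G ≤ m := by
    have h1 : closure (((OI α).toFinite.toFinset : Finset G) : Set G) = ⊤ := by
      rw [Set.Finite.coe_toFinset]
      exact hgen
    refine (Group.rank_le h1).trans (le_trans (le_of_eq ?_) hm)
    rw [Nat.card_eq_fintype_card, Set.Finite.card_toFinset]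
  have hrankK : Group.rank K ≤ r * m := by
    refine (Subgroup.rank_le_index_mul_rank K).trans ?_
    exact Nat.mul_le_mul hKidx hrankG
  obtain ⟨S, hS1, hS2⟩ := Group.rank_spec K
  -- a subgroup of bounded index centralizing the generators
  obtain ⟨W, hW1, hW2⟩ := exists_centralizing (S.image (fun s : K => (s : G)))
    (n := r ^ (3 * r + 2)) (by
      intro s hs
      obtain ⟨t, -, rfl⟩ := Finset.mem_image.1 hs
      exact hclass _ t.2)
  have hWK : ∀ w ∈ W, ∀ k ∈ K, w * k = k * w := by
    intro w hw k hk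
    have h1 : (⟨k, hk⟩ : K) ∈ closure (S : Set K) := by
      rw [hS2]
      trivial
    have h2 : closure (S : Set K) ≤ (cz w).comap K.subtype := by
      rw [closure_le]
      intro s hs
      change (s : G) ∈ cz w
      rw [mem_cz]
      exact (hW2 w hw s (Finset.mem_image_of_mem _ hs)).symm
    have h3 : k ∈ cz w := h2 h1
    exact (mem_cz.1 h3).symm
  -- the abelian normal subgroup
  set A := K ⊓ centralizer (K : Set G) with hA
  have hAmem : ∀ a, a ∈ A ↔ a ∈ K ∧ ∀ k ∈ K, a * k = k * a := by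
    intro a
    rw [hA, Subgroup.mem_inf, Subgroup.mem_centralizer_iff]
    constructor
    · rintro ⟨h1, h2⟩
      exact ⟨h1, fun k hk => (h2 k hk).symm⟩
    · rintro ⟨h1, h2⟩
      exact ⟨h1, fun k hk => (h2 k hk).symm⟩
  have hAb : ∀ a ∈ A, ∀ b ∈ A, a * b = b * a := fun a ha b hb =>
    ((hAmem a).1 ha).2 b ((hAmem b).1 hb).1
  have hAaut : ∀ (β : MulAut G), ∀ a ∈ A, β a ∈ A := by
    intro β a ha
    obtain ⟨h1, h2⟩ := (hAmem a).1 ha
    refine (hAmem _).2 ⟨hautK β a h1, fun k hk => ?_⟩
    have h3 := h2 (β⁻¹ k) (hautK β⁻¹ k hk)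
    have h4 := congrArg β h3
    simpa using h4
  have hAn : A.Normal := ⟨fun a ha g => hAaut (MulAut.conj g) a ha⟩
  have hWcent : W ≤ centralizer (K : Set G) := by
    intro w hw
    rw [Subgroup.mem_centralizer_iff]
    intro k hk
    exact (hWK w hw k hk).symm
  have hAidx : A.index ≤ r * (r ^ (3 * r + 2)) ^ (r * m) := by
    refine Subgroup.index_inf_le.trans (Nat.mul_le_mul hKidx ?_)
    have h1 : (centralizer (K : Set G)).index ≤ W.index :=
      Nat.le_of_dvd (Nat.pos_of_ne_zero FiniteIndex.index_ne_zero) (Subgroup.index_dvd_of_le hWcent)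
    refine h1.trans (hW1.trans ?_)
    have hb : 1 ≤ r ^ (3 * r + 2) := Nat.one_le_pow _ _ hrpos
    refine Nat.pow_le_pow_right hb ?_
    refine (Finset.card_image_le).trans ?_
    rw [hS1]
    exact hrankK
  -- the central part of `A`
  obtain ⟨W₂, hW₂1, hW₂2, hW₂3⟩ := exists_rel_centralizing hα hAn hAb (hAaut α) hc
    (OI α).toFinite.toFinset (fun x hx => (Set.Finite.mem_toFinset _).1 hx)
  have hW₂Z : W₂ ≤ center G := by
    intro w hw
    exact mem_center_of_closure hgen fun s hs =>
      hW₂3 w hw s ((Set.Finite.mem_toFinset _).2 hs)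
  have hfin : (center G).index ≤ W₂.index :=
    Nat.le_of_dvd (Nat.pos_of_ne_zero FiniteIndex.index_ne_zero) (Subgroup.index_dvd_of_le hW₂Z)
  refine hfin.trans ?_
  rw [← Subgroup.relIndex_mul_index hW₂1]
  unfold BB
  refine Nat.mul_le_mul ?_ hAidx
  refine hW₂2.trans ?_
  refine Nat.pow_le_pow_right (by positivity) (le_trans (le_of_eq ?_) hm)
  rw [Nat.card_eq_fintype_card, Set.Finite.card_toFinset]

end Cfsg.Agent.Lib.InvBound
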