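import Cfsg.Agent.Lib.InvBound.Basic

/-!
# Many inverted elements give many elements with large centralizer (P. M. Neumann style)
-/

namespace Cfsg.Agent.Lib.InvBound

open Subgroup
open scoped Pointwise

universe u

variable {G : Type u} [Group G] [Finite G]

/-- `|G| ≤ |C(α)| · |J|`, with `J` the inverted elements. -/
theorem card_le_fix_mul_J [Fintype G] [DecidableEq G] {α : MulAut G} (hα : α * α = 1) :
    Fintype.card G ≤ Nat.card (Fx α) * (Finset.univ.filter (fun x : G => α x = x⁻¹)).card := by
  classical
  have h1 := Finset.card_le_mul_card_image (f := fun c : G => c * (α c)⁻¹) Finset.univ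
    (Nat.card (Fx α)) (by
      intro a ha
      obtain ⟨h, -, rfl⟩ := Finset.mem_image.1 ha
      let S := Finset.univ.filter (fun x : G => x * (α x)⁻¹ = h * (α h)⁻¹)
      have hinj : Function.Injective (fun g : S => (⟨h⁻¹ * g.1, by
          have hg := (Finset.mem_filter.1 g.2).2
          change α (h⁻¹ * g.1) = h⁻¹ * g.1
          rw [map_mul, map_inv]
          have h3 : (α h)⁻¹ * α g.1 = h⁻¹ * g.1 := by
            have : g.1 = h * (α h)⁻¹ * α g.1 := by
              rw [← hg]
              group
            conv_rhs => rw [this]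
            group
          exact h3⟩ : Fx α)) := by
        intro a b hab
        have h2 := congrArg Subtype.val hab
        exact Subtype.ext (mul_left_cancel h2)
      have h4 := Nat.card_le_card_of_injective _ hinj
      rwa [Nat.card_eq_fintype_card, Fintype.card_coe] at h4)
  rw [Finset.card_univ] at h1
  refine h1.trans (Nat.mul_le_mul_left _ (Finset.card_le_card ?_))
  intro y hy
  obtain ⟨c, -, rfl⟩ := Finset.mem_image.1 hy
  rw [Finset.mem_filter]
  refine ⟨Finset.mem_univ _, ?_⟩
  rw [map_mul, map_inv, invol hα]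
  group

/-- `|J|² ≤ Σ_x |C(x)|`. -/
theorem J_sq_le [Fintype G] [DecidableEq G] (α : MulAut G) :
    (Finset.univ.filter (fun x : G => α x = x⁻¹)).card ^ 2 ≤ ∑ x : G, Nat.card (cz x) := by
  classical
  set J := Finset.univ.filter (fun x : G => α x = x⁻¹) with hJ
  have h1 : (J ×ˢ J).card = ∑ x : G, ((J ×ˢ J).filter (fun p : G × G => p.1 * p.2⁻¹ = x)).card :=
    Finset.card_eq_sum_card_fiberwise (fun _ _ => Finset.mem_coe.2 (Finset.mem_univ _))
  rw [pow_two, ← Finset.card_product, h1]
  refine Finset.sum_le_sum fun x _ => ?_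
  set F := (J ×ˢ J).filter (fun p : G × G => p.1 * p.2⁻¹ = x) with hF
  by_cases hne : F.Nonempty
  · obtain ⟨p₀, hp₀⟩ := hne
    have key : ∀ p ∈ F, α x = p.2⁻¹ * x⁻¹ * p.2 := by
      intro p hp
      obtain ⟨hp1, hp2⟩ := Finset.mem_filter.1 hp
      obtain ⟨h1', h2'⟩ := Finset.mem_product.1 hp1
      have h3 : α p.1 = p.1⁻¹ := (Finset.mem_filter.1 h1').2
      have h4 : α p.2 = p.2⁻¹ := (Finset.mem_filter.1 h2').2
      have h5 : p.1 = x * p.2 := by rw [← hp2]; group
      rw [h5, map_mul, h4, mul_inv_rev] at h3
      have h6 : α x = p.2⁻¹ * x⁻¹ * p.2 := by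
        calc α x = α x * p.2⁻¹ * p.2 := by group
          _ = _ := by rw [h3]
      exact h6
    have hmem : ∀ p : F, p.1.2 * p₀.2⁻¹ ∈ cz x := by
      intro p
      have h1' := key p.1 p.2
      have h2' := key p₀ hp₀
      rw [h1'] at h2'
      rw [mem_cz]
      have h3 : p.1.2⁻¹ * x⁻¹ * p.1.2 = p₀.2⁻¹ * x⁻¹ * p₀.2 := h2'
      have h4 : x⁻¹ * (p.1.2 * p₀.2⁻¹) = (p.1.2 * p₀.2⁻¹) * x⁻¹ := by
        have : p.1.2 * (p.1.2⁻¹ * x⁻¹ * p.1.2) * p₀.2⁻¹ = p.1.2 * (p₀.2⁻¹ * x⁻¹ * p₀.2) * p₀.2⁻¹ := by
          rw [h3]
        simp only [mul_assoc, mul_inv_cancel_left, mul_inv_cancel, mul_one] at this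
        rw [mul_assoc (p.1.2) (p₀.2⁻¹) x⁻¹]
        exact this
      have h5 : (p.1.2 * p₀.2⁻¹) * x = x * (p.1.2 * p₀.2⁻¹) := by
        calc (p.1.2 * p₀.2⁻¹) * x = x * (x⁻¹ * (p.1.2 * p₀.2⁻¹)) * x := by group
          _ = x * ((p.1.2 * p₀.2⁻¹) * x⁻¹) * x := by rw [h4]
          _ = _ := by group
      exact h5
    have hinj : Function.Injective (fun p : F => (⟨p.1.2 * p₀.2⁻¹, hmem p⟩ : cz x)) := by
      intro p q hpq
      have h1' : p.1.2 = q.1.2 := by
        have := congrArg Subtype.val hpq
        exact mul_right_cancel this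
      have hp := (Finset.mem_filter.1 p.2).2
      have hq := (Finset.mem_filter.1 q.2).2
      have h2' : p.1.1 = q.1.1 := by
        have h3 : p.1.1 = x * p.1.2 := by rw [← hp]; group
        have h4 : q.1.1 = x * q.1.2 := by rw [← hq]; group
        rw [h3, h4, h1']
      exact Subtype.ext (Prod.ext h2' h1')
    have h4 := Nat.card_le_card_of_injective _ hinj
    rwa [Nat.card_eq_fintype_card, Fintype.card_coe] at h4
  · rw [Finset.not_nonempty_iff_eq_empty.1 hne]
    simp

/-- With `|C(α)| ≤ c` and `r = 2c²`: at least `|G|/r` elements have class size at most `r`. -/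
theorem card_le_r_mul [Fintype G] [DecidableEq G] {α : MulAut G} (hα : α * α = 1) {c : ℕ}
    (hc : Nat.card (Fx α) ≤ c) :
    Fintype.card G ≤ 2 * c ^ 2 * (Finset.univ.filter (fun x : G => (cz x).index ≤ 2 * c ^ 2)).card := by
  classical
  set r := 2 * c ^ 2 with hr
  set n := Fintype.card G with hn
  set J := Finset.univ.filter (fun x : G => α x = x⁻¹) with hJ
  set X := Finset.univ.filter (fun x : G => (cz x).index ≤ r) with hX
  have h1 : n ≤ c * J.card :=
    (card_le_fix_mul_J hα).trans (Nat.mul_le_mul_right _ hc)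
  have h2 : J.card ^ 2 ≤ ∑ x : G, Nat.card (cz x) := J_sq_le α
  have hnpos : 0 < n := Fintype.card_pos
  have hcard : ∀ x : G, (cz x).index * Nat.card (cz x) = n := by
    intro x
    rw [Subgroup.index_mul_card, Nat.card_eq_fintype_card]
  have h3 : ∑ x : G, r * Nat.card (cz x) ≤ ∑ x : G, (if (cz x).index ≤ r then r * n else n) := by
    refine Finset.sum_le_sum fun x _ => ?_
    split_ifs with h
    · refine Nat.mul_le_mul_left _ ?_
      rw [← hcard x]
      exact Nat.le_mul_of_pos_left _ (Nat.pos_of_ne_zero FiniteIndex.index_ne_zero)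
    · rw [← hcard x]
      exact Nat.mul_le_mul_right _ (by omega)
  have h4 : ∑ x : G, (if (cz x).index ≤ r then r * n else n) ≤ X.card * (r * n) + n * n := by
    rw [Finset.sum_ite, Finset.sum_const, Finset.sum_const, smul_eq_mul, smul_eq_mul]
    refine add_le_add le_rfl (Nat.mul_le_mul_right _ ?_)
    exact (Finset.card_le_univ _).trans le_rfl
  have h5 : r * J.card ^ 2 ≤ X.card * (r * n) + n * n := by
    rw [← Finset.mul_sum] at h3
    calc r * J.card ^ 2 ≤ r * ∑ x : G, Nat.card (cz x) := Nat.mul_le_mul_left _ h2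
      _ ≤ _ := h3.trans h4
  have h6 : n * n ≤ c ^ 2 * J.card ^ 2 := by
    calc n * n ≤ (c * J.card) * (c * J.card) := Nat.mul_le_mul h1 h1
      _ = _ := by ring
  have h7 : 2 * (n * n) ≤ r * J.card ^ 2 := by
    rw [hr]
    nlinarith
  have h8 : n * n ≤ (r * X.card) * n := by
    nlinarith
  exact Nat.le_of_mul_le_mul_right h8 hnpos

/-- Word length: a large symmetric set generates in boundedly many steps. -/
theorem mem_pow_of_mem_closure [DecidableEq G] {X : Finset G} (h1 : (1 : G) ∈ X)
    (hinv : ∀ x ∈ X, x⁻¹ ∈ X) {r : ℕ} (hr : Nat.card G ≤ r * X.card) :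
    ∀ k ∈ closure (X : Set G), k ∈ X ^ (3 * r + 2) := by
  classical
  have hstep : ∀ j : ℕ, (∀ k ∈ closure (X : Set G), k ∈ X ^ (3 * j + 2)) ∨
      (j + 1) * X.card ≤ (X ^ (3 * j + 1)).card := by
    intro j
    induction j with
    | zero =>
      right
      simp
    | succ j ih =>
      rcases ih with ih | ih
      · left
        intro k hk
        exact Finset.pow_subset_pow_right h1 (by omega) (ih k hk)
      · by_cases hall : ∀ k ∈ closure (X : Set G), k ∈ X ^ (3 * j + 2)
        · left
          intro k hk
          exact Finset.pow_subset_pow_right h1 (by omega) (hall k hk)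
        · right
          have hsub : ¬ (X ^ (3 * j + 3) ⊆ X ^ (3 * j + 2)) := by
            intro hs
            apply hall
            intro k hk
            induction hk using closure_induction_right with
            | one =>
              have : (1 : G) ∈ X ^ 0 := by simp
              exact Finset.pow_subset_pow_right h1 (by omega) this
            | mul_right a _ y hy ih2 =>
              apply hs
              rw [show 3 * j + 3 = (3 * j + 2) + 1 by ring, pow_succ]
              exact Finset.mul_mem_mul ih2 hy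
            | mul_inv_cancel a _ y hy ih2 =>
              apply hs
              rw [show 3 * j + 3 = (3 * j + 2) + 1 by ring, pow_succ]
              exact Finset.mul_mem_mul ih2 (hinv y hy)
          obtain ⟨y, hy1, hy2⟩ := Finset.not_subset.1 hsub
          let Y := X.image (fun x => y * x)
          have hYcard : Y.card = X.card :=
            Finset.card_image_of_injective _ (mul_right_injective y)
          have hdisj : Disjoint (X ^ (3 * j + 1)) Y := by
            rw [Finset.disjoint_left]
            intro p hp hpY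
            obtain ⟨x, hx, rfl⟩ := Finset.mem_image.1 hpY
            apply hy2
            rw [show 3 * j + 2 = (3 * j + 1) + 1 by ring, pow_succ]
            have : y = (y * x) * x⁻¹ := by group
            rw [this]
            exact Finset.mul_mem_mul hp (hinv x hx)
          have hsub2 : X ^ (3 * j + 1) ∪ Y ⊆ X ^ (3 * (j + 1) + 1) := by
            intro p hp
            rcases Finset.mem_union.1 hp with hp | hp
            · exact Finset.pow_subset_pow_right h1 (by omega) hp
            · obtain ⟨x, hx, rfl⟩ := Finset.mem_image.1 hp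
              rw [show 3 * (j + 1) + 1 = (3 * j + 3) + 1 by ring, pow_succ]
              exact Finset.mul_mem_mul hy1 hx
          have h3 := Finset.card_le_card hsub2
          rw [Finset.card_union_of_disjoint hdisj, hYcard] at h3
          calc (j + 1 + 1) * X.card = (j + 1) * X.card + X.card := by ring
            _ ≤ _ := by omega
  rcases hstep r with h | h
  · exact h
  · exfalso
    have hX : 0 < X.card := Finset.card_pos.2 ⟨1, h1⟩
    haveI := Fintype.ofFinite G
    have h2 : (X ^ (3 * r + 1)).card ≤ Nat.card G := by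
      rw [Nat.card_eq_fintype_card]
      exact Finset.card_le_univ _
    nlinarith

/-- Elements in `X ^ j` have class size at most `r ^ j`. -/
theorem index_cz_of_mem_pow [DecidableEq G] {X : Finset G} {r : ℕ}
    (hX : ∀ x ∈ X, (cz x).index ≤ r) : ∀ (j : ℕ), ∀ g ∈ X ^ j, (cz g).index ≤ r ^ j := by
  intro j
  induction j with
  | zero =>
    intro g hg
    have hg1 : g = 1 := by simpa using hg
    subst hg1
    have : cz (1 : G) = ⊤ := by
      ext y
      rw [mem_cz]
      simp
    rw [this]
    simp
  | succ j ih =>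
    intro g hg
    rw [pow_succ] at hg
    obtain ⟨a, ha, b, hb, rfl⟩ := Finset.mem_mul.1 hg
    refine (index_cz_mul_le a b).trans ?_
    rw [pow_succ]
    exact Nat.mul_le_mul (ih a ha) (hX b hb)

end Cfsg.Agent.Lib.InvBound
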