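import Cfsg.Agent.Lib.InvBound.Center

/-!
# From the center index to the order; passing to `G / Z(G)`
-/

namespace Cfsg.Agent.Lib.InvBound

open Subgroup
open scoped Pointwise commutatorElement

universe u

variable {G : Type u} [Group G] [Finite G]

/-- The Schur-type bound. -/
def SS (B : ℕ) : ℕ := B ^ (B * B ^ 2 + 1)

theorem card_commutatorSet_le : Nat.card (commutatorSet G) ≤ (center G).index ^ 2 := by
  classical
  let F : (G ⧸ center G) × (G ⧸ center G) → commutatorSet G := fun p =>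
    ⟨⁅p.1.out, p.2.out⁆, ⟨_, _, rfl⟩⟩
  have hF : Function.Surjective F := by
    rintro ⟨_, g₁, g₂, rfl⟩
    refine ⟨((g₁ : G ⧸ center G), (g₂ : G ⧸ center G)), Subtype.ext ?_⟩
    obtain ⟨z₁, hz₁⟩ := QuotientGroup.mk_out_eq_mul (center G) g₁
    obtain ⟨z₂, hz₂⟩ := QuotientGroup.mk_out_eq_mul (center G) g₂
    change ⁅(g₁ : G ⧸ center G).out, (g₂ : G ⧸ center G).out⁆ = ⁅g₁, g₂⁆
    rw [hz₁, hz₂]
    have h1 := Subgroup.mem_center_iff.1 z₁.2
    have h2 := Subgroup.mem_center_iff.1 z₂.2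
    simp only [commutatorElement_def]
    calc g₁ * z₁ * (g₂ * z₂) * (g₁ * z₁)⁻¹ * (g₂ * z₂)⁻¹
        = g₁ * ((z₁ : G) * g₂) * ((z₂ : G) * ((z₁ : G)⁻¹ * g₁⁻¹) * (z₂ : G)⁻¹) * g₂⁻¹ := by group
      _ = g₁ * (g₂ * (z₁ : G)) * (((z₁ : G)⁻¹ * g₁⁻¹) * (z₂ : G) * (z₂ : G)⁻¹) * g₂⁻¹ := by
          rw [h1 g₂, h2 ((z₁ : G)⁻¹ * g₁⁻¹)]
      _ = g₁ * g₂ * g₁⁻¹ * g₂⁻¹ := by group
  have h1 := Nat.card_le_card_of_surjective F hF
  rw [Nat.card_prod, ← pow_two] at h1
  exact h1

theorem card_commutator_le {B : ℕ} (hB : (center G).index ≤ B) :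
    Nat.card (_root_.commutator G) ≤ SS B := by
  have h1 := Subgroup.card_commutator_dvd_index_center_pow G
  have hidx : 0 < (center G).index := Nat.pos_of_ne_zero FiniteIndex.index_ne_zero
  have h2 := Nat.le_of_dvd (by positivity) h1
  refine h2.trans ?_
  unfold SS
  have h3 : (center G).index * Nat.card (commutatorSet G) + 1 ≤ B * B ^ 2 + 1 := by
    refine Nat.add_le_add_right (Nat.mul_le_mul hB ?_) 1
    exact card_commutatorSet_le.trans (Nat.pow_le_pow_left hB 2)
  calc _ ≤ (center G).index ^ (B * B ^ 2 + 1) := Nat.pow_le_pow_right hidx h3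
    _ ≤ _ := Nat.pow_le_pow_left hB _

/-- `|G : G'| ≤ |OI α|` when `G = ⟨OI α⟩`. -/
theorem index_commutator_le {α : MulAut G} (hα : α * α = 1) (hgen : closure (OI α) = ⊤) :
    (_root_.commutator G).index ≤ Nat.card (OI α) := by
  let of' : G →* Abelianization G := Abelianization.of
  have ha : ∀ g : G, of' (α g) = (of' g)⁻¹ := by
    intro g
    have hg : g ∈ closure (OI α) := hgen ▸ mem_top g
    induction hg using closure_induction with
    | mem x hx =>
      rw [hx.2, map_inv]
    | one => simp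
    | mul a b _ _ ha hb =>
      rw [map_mul, map_mul, ha, hb, map_mul, mul_inv]
    | inv a _ ha =>
      rw [map_inv, map_inv, ha, map_inv]
  obtain ⟨a, M, hM, haM⟩ := Nat.exists_eq_two_pow_mul_odd (Nat.card_pos (α := G)).ne'
  have hb : ∀ g : G, (of' g) ^ M = 1 := by
    intro g
    have hg : g ∈ closure (OI α) := hgen ▸ mem_top g
    induction hg using closure_induction with
    | mem x hx =>
      have h1 : orderOf x ∣ 2 ^ a * M := haM ▸ orderOf_dvd_natCard x
      have h2 : (orderOf x).Coprime (2 ^ a) :=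
        Nat.Coprime.pow_right _ (Nat.coprime_two_right.2 hx.1)
      have h3 : orderOf x ∣ M := h2.dvd_of_dvd_mul_left h1
      rw [← map_pow, orderOf_dvd_iff_pow_eq_one.1 h3, map_one]
    | one => simp
    | mul a b _ _ ha hb =>
      rw [map_mul, mul_pow, ha, hb, one_mul]
    | inv a _ ha =>
      rw [map_inv, inv_pow, ha, inv_one]
  have hsurj : Function.Surjective (fun u : OI α => of' u.1) := by
    intro z
    obtain ⟨g, rfl⟩ := QuotientGroup.mk'_surjective _ z
    have hodd : Odd (orderOf (of' g)) :=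
      Odd.of_dvd_nat hM (orderOf_dvd_of_pow_eq_one (hb g))
    obtain ⟨u, hu, huz⟩ := exists_lift hα of' g hodd (ha g)
    exact ⟨⟨u, hu⟩, huz⟩
  have h1 := Nat.card_le_card_of_surjective _ hsurj
  exact h1

/-- `|G| ≤ m · S(|G : Z(G)|)`. -/
theorem card_le_of_center_index {α : MulAut G} (hα : α * α = 1) (hgen : closure (OI α) = ⊤)
    {m B : ℕ} (hm : Nat.card (OI α) ≤ m) (hB : (center G).index ≤ B) :
    Nat.card G ≤ m * SS B := by
  rw [← Subgroup.card_mul_index (_root_.commutator G), mul_comm]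
  exact Nat.mul_le_mul ((index_commutator_le hα hgen).trans hm) (card_commutator_le hB)

/-- The automorphism induced on `G / Z(G)`. -/
noncomputable def quotAut (α : MulAut G) : MulAut (G ⧸ center G) :=
  QuotientGroup.congr (center G) (center G) α
    (Subgroup.characteristic_iff_map_eq.1 inferInstance α)

theorem quotAut_mk (α : MulAut G) (g : G) :
    quotAut α (g : G ⧸ center G) = ((α g : G) : G ⧸ center G) :=
  QuotientGroup.congr_mk _ _ _ _ _

theorem quotAut_invol {α : MulAut G} (hα : α * α = 1) : quotAut α * quotAut α = 1 := by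
  ext q
  obtain ⟨g, rfl⟩ := QuotientGroup.mk_surjective q
  rw [MulAut.mul_apply, quotAut_mk, quotAut_mk, invol hα]
  rfl

theorem mem_OI_quot {α : MulAut G} {x : G} (hx : x ∈ OI α) :
    (x : G ⧸ center G) ∈ OI (quotAut α) := by
  refine ⟨?_, ?_⟩
  · exact Odd.of_dvd_nat hx.1 (orderOf_map_dvd (QuotientGroup.mk' (center G)) x)
  · rw [quotAut_mk, hx.2]
    rfl

theorem closure_OI_quot {α : MulAut G} (hgen : closure (OI α) = ⊤) :
    closure (OI (quotAut α)) = ⊤ := by
  rw [eq_top_iff]
  have key : ∀ g : G, (g : G ⧸ center G) ∈ closure (OI (quotAut α)) := by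
    intro g
    have hg : g ∈ closure (OI α) := hgen ▸ mem_top g
    induction hg using closure_induction with
    | mem x hx => exact subset_closure (mem_OI_quot hx)
    | one => exact one_mem _
    | mul a b _ _ ha hb =>
      rw [QuotientGroup.mk_mul]
      exact mul_mem ha hb
    | inv a _ ha =>
      rw [QuotientGroup.mk_inv]
      exact inv_mem ha
  rintro q -
  obtain ⟨g, rfl⟩ := QuotientGroup.mk_surjective q
  exact key g

theorem card_OI_quot_le {α : MulAut G} (hα : α * α = 1) :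
    Nat.card (OI (quotAut α)) ≤ Nat.card (OI α) := by
  have hsurj : Function.Surjective
      (fun u : OI α => (⟨(u.1 : G ⧸ center G), mem_OI_quot u.2⟩ : OI (quotAut α))) := by
    rintro ⟨q, hq⟩
    obtain ⟨g, rfl⟩ := QuotientGroup.mk_surjective q
    have h1 : QuotientGroup.mk' (center G) (α g) = (QuotientGroup.mk' (center G) g)⁻¹ := by
      have := hq.2
      rw [quotAut_mk] at this
      exact this
    obtain ⟨u, hu, huz⟩ := exists_lift hα (QuotientGroup.mk' (center G)) g hq.1 h1
    exact ⟨⟨u, hu⟩, Subtype.ext huz⟩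
  exact Nat.card_le_card_of_surjective _ hsurj

/-- The fixed points on `G / Z(G)` act faithfully on `OI α`. -/
theorem card_Fx_quot_le {α : MulAut G} (hgen : closure (OI α) = ⊤) :
    Nat.card (Fx (quotAut α)) ≤ Nat.card (OI α) ^ Nat.card (OI α) := by
  classical
  have hq : ∀ q : Fx (quotAut α), ∀ x ∈ OI α,
      (q.1.out) * x * (q.1.out)⁻¹ ∈ OI α := by
    intro q x hx
    set g := q.1.out with hg
    have h1 : (g : G ⧸ center G) = q.1 := QuotientGroup.out_eq' _
    have h2 : ((α g : G) : G ⧸ center G) = (g : G ⧸ center G) := by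
      rw [← quotAut_mk, h1]
      exact q.2
    have h3 : g⁻¹ * α g ∈ center G := QuotientGroup.eq.1 h2.symm
    have h4 := Subgroup.mem_center_iff.1 h3
    have hαg : α g = g * (g⁻¹ * α g) := by group
    refine ⟨?_, ?_⟩
    · have : orderOf (MulAut.conj g x) = orderOf x := MulEquiv.orderOf_eq _ _
      rw [MulAut.conj_apply] at this
      rw [this]
      exact hx.1
    · rw [map_mul, map_mul, map_inv, hx.2, hαg]
      have h5 : (g⁻¹ * α g) * x⁻¹ * (g⁻¹ * α g)⁻¹ = x⁻¹ := by
        rw [← h4 x⁻¹]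
        group
      calc g * (g⁻¹ * α g) * x⁻¹ * (g * (g⁻¹ * α g))⁻¹
          = g * ((g⁻¹ * α g) * x⁻¹ * (g⁻¹ * α g)⁻¹) * g⁻¹ := by group
        _ = _ := by rw [h5]; group
  let Φ : Fx (quotAut α) → (OI α → OI α) := fun q x => ⟨_, hq q x.1 x.2⟩
  have hΦ : Function.Injective Φ := by
    intro q q' h
    have hcomm : ∀ x ∈ OI α, (q'.1.out)⁻¹ * q.1.out * x = x * ((q'.1.out)⁻¹ * q.1.out) := by
      intro x hx
      have h1 := congrArg (fun w : OI α => w.1) (congrFun h ⟨x, hx⟩)
      have h2 : q.1.out * x * (q.1.out)⁻¹ = q'.1.out * x * (q'.1.out)⁻¹ := h1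
      calc (q'.1.out)⁻¹ * q.1.out * x = (q'.1.out)⁻¹ * (q.1.out * x * (q.1.out)⁻¹) * q.1.out := by group
        _ = (q'.1.out)⁻¹ * (q'.1.out * x * (q'.1.out)⁻¹) * q.1.out := by rw [h2]
        _ = _ := by group
    have h3 : (q'.1.out)⁻¹ * q.1.out ∈ center G := mem_center_of_closure hgen hcomm
    apply Subtype.ext
    have h4 : ((q'.1.out : G) : G ⧸ center G) = (q.1.out : G) := QuotientGroup.eq.2 h3
    rw [QuotientGroup.out_eq', QuotientGroup.out_eq'] at h4
    exact h4.symm
  have h1 := Nat.card_le_card_of_injective Φ hΦ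
  rwa [Nat.card_fun] at h1

/-- **The bound.** -/
theorem card_le_main {α : MulAut G} (hα : α * α = 1) (hgen : closure (OI α) = ⊤) :
    Nat.card G ≤ Nat.card (OI α) * SS (Nat.card (OI α) * SS (BB (Nat.card (OI α))
      (Nat.card (OI α) ^ Nat.card (OI α)))) := by
  set m := Nat.card (OI α) with hm
  have hc1 : Nat.card (OI (quotAut α)) ≤ m := card_OI_quot_le hα
  have hc2 : Nat.card (Fx (quotAut α)) ≤ m ^ m := card_Fx_quot_le hgen
  have hα' := quotAut_invol hα
  have hgen' := closure_OI_quot hgen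
  have h1 := center_index_le hα' hgen' hc1 hc2
  have h2 := card_le_of_center_index hα' hgen' hc1 h1
  have h3 : (center G).index ≤ m * SS (BB m (m ^ m)) := by
    rw [Subgroup.index_eq_card]
    exact h2
  exact card_le_of_center_index hα hgen le_rfl h3

end Cfsg.Agent.Lib.InvBound
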